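import Cfsg.Agent.Lib.Helper10.AbAlt.Defs

/-! S2506 farm, pieces DEC + PROD: splitting a permutation along an invariant set; internal direct products. -/

set_option autoImplicit false
set_option linter.unusedSectionVars false
open Equiv Equiv.Perm

namespace Cfsg.Agent.Lib.Helper10.AbAlt

variable {α : Type*} [DecidableEq α] [Fintype α]

theorem exists_decomp (T : Finset α) (a : Perm α) (hT : ∀ y, y ∈ T ↔ a y ∈ T) :
    ∃ u v : Perm α, a = u * v ∧ u ∈ Sy T ∧ (∀ y ∈ T, v y = y) ∧ (∀ y ∈ T, u y = a y) ∧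
      (∀ y, y ∉ T → v y = a y) := by
  classical
  set u : Perm α := ofSubtype (a.subtypePerm (p := fun y => y ∈ T) (fun y => (hT y).symm)) with hu
  have hu1 : ∀ y ∈ T, u y = a y := fun y hy => by
    rw [hu, ofSubtype_apply_of_mem _ hy]
    rfl
  have hu2 : ∀ y, y ∉ T → u y = y := fun y hy => ofSubtype_apply_of_not_mem _ hy
  refine ⟨u, u⁻¹ * a, by simp, hu2, ?_, hu1, ?_⟩
  · intro y hy
    rw [Perm.mul_apply, Perm.inv_eq_iff_eq, hu1 y hy]
  · intro y hy
    rw [Perm.mul_apply, Perm.inv_eq_iff_eq]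
    exact (hu2 _ (fun h => hy ((hT y).2 h))).symm

theorem commute_of_fixes {T : Finset α} {u v : Perm α} (hu : u ∈ Sy T) (hv : ∀ y ∈ T, v y = y) :
    u * v = v * u := by
  have hd : Perm.Disjoint u v := by
    intro y
    by_cases hy : y ∈ T
    · exact Or.inr (hv y hy)
    · exact Or.inl (hu y hy)
  exact hd.commute

theorem commute_of_disjoint {T U : Finset α} (hTU : Disjoint T U) {u v : Perm α} (hu : u ∈ Sy T)
    (hv : v ∈ Sy U) : u * v = v * u :=
  commute_of_fixes hu (fun y hy => hv y (Finset.disjoint_left.1 hTU hy))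

theorem Sy_inf_Sy {T U : Finset α} (hTU : Disjoint T U) : Sy T ⊓ Sy U = ⊥ := by
  rw [eq_bot_iff]
  intro a ha
  rw [Subgroup.mem_inf] at ha
  rw [Subgroup.mem_bot]
  ext y
  by_cases hy : y ∈ T
  · exact ha.2 y (Finset.disjoint_left.1 hTU hy)
  · exact ha.1 y hy

/-- the multiplication map `R × K → Perm α`. -/
noncomputable def prodHom {T U : Finset α} (hTU : Disjoint T U) {R K : Subgroup (Perm α)} (hR : R ≤ Sy T)
    (hK : K ≤ Sy U) : R × K →* Perm α :=
  MonoidHom.noncommCoprod R.subtype K.subtype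
    (fun r k => show Commute (R.subtype r) (K.subtype k) from commute_of_disjoint hTU (hR r.2) (hK k.2))

theorem prodHom_range {T U : Finset α} (hTU : Disjoint T U) {R K : Subgroup (Perm α)} (hR : R ≤ Sy T)
    (hK : K ≤ Sy U) : (prodHom hTU hR hK).range = R ⊔ K := by
  rw [prodHom, MonoidHom.noncommCoprod_range, Subgroup.range_subtype, Subgroup.range_subtype]

theorem prodHom_injective {T U : Finset α} (hTU : Disjoint T U) {R K : Subgroup (Perm α)} (hR : R ≤ Sy T)
    (hK : K ≤ Sy U) : Function.Injective (prodHom hTU hR hK) := by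
  rw [prodHom, MonoidHom.noncommCoprod_injective]
  refine ⟨Subgroup.subtype_injective _, Subgroup.subtype_injective _, ?_⟩
  rw [Subgroup.range_subtype, Subgroup.range_subtype, disjoint_iff, eq_bot_iff, ← Sy_inf_Sy hTU]
  exact inf_le_inf hR hK

theorem mem_sup_of_disjoint {T U : Finset α} (hTU : Disjoint T U) {R K : Subgroup (Perm α)} (hR : R ≤ Sy T)
    (hK : K ≤ Sy U) (a : Perm α) : a ∈ R ⊔ K ↔ ∃ r ∈ R, ∃ k ∈ K, a = r * k := by
  rw [← prodHom_range hTU hR hK, MonoidHom.mem_range]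
  constructor
  · rintro ⟨⟨r, k⟩, rfl⟩
    exact ⟨r.1, r.2, k.1, k.2, rfl⟩
  · rintro ⟨r, hr, k, hk, rfl⟩
    exact ⟨(⟨r, hr⟩, ⟨k, hk⟩), rfl⟩

theorem card_sup_of_disjoint {T U : Finset α} (hTU : Disjoint T U) {R K : Subgroup (Perm α)} (hR : R ≤ Sy T)
    (hK : K ≤ Sy U) : Nat.card (R ⊔ K : Subgroup (Perm α)) = Nat.card R * Nat.card K := by
  rw [← prodHom_range hTU hR hK, ← Nat.card_prod]
  exact (Nat.card_congr (MonoidHom.ofInjective (prodHom_injective hTU hR hK)).toEquiv).symm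

theorem ab_sup_of_disjoint {T U : Finset α} (hTU : Disjoint T U) {R K : Subgroup (Perm α)} (hR : R ≤ Sy T)
    (hK : K ≤ Sy U) (hRa : Ab R) (hKa : Ab K) : Ab (R ⊔ K) := by
  intro a ha b hb
  obtain ⟨r, hr, k, hk, rfl⟩ := (mem_sup_of_disjoint hTU hR hK a).1 ha
  obtain ⟨r', hr', k', hk', rfl⟩ := (mem_sup_of_disjoint hTU hR hK b).1 hb
  have h1 : k * r' = r' * k := (commute_of_disjoint hTU (hR hr') (hK hk)).symm
  have h2 : k' * r = r * k' := (commute_of_disjoint hTU (hR hr) (hK hk')).symm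
  calc r * k * (r' * k') = r * (k * r') * k' := by group
    _ = r * (r' * k) * k' := by rw [h1]
    _ = (r * r') * (k * k') := by group
    _ = (r' * r) * (k' * k) := by rw [hRa r hr r' hr', hKa k hk k' hk']
    _ = r' * (r * k') * k := by group
    _ = r' * (k' * r) * k := by rw [h2]
    _ = r' * k' * (r * k) := by group

end Cfsg.Agent.Lib.Helper10.AbAlt
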