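import Mathlib

/-!
S2506 (abelian subgroups of largest order of `A_n` are conjugate): shared definitions (helper10; paper proof helper26).
Everything happens inside ONE ambient group `Equiv.Perm α`; "a group on the point set `S`" is a subgroup of
`Sy S` (permutations fixing every point outside the finset `S`).
-/

set_option autoImplicit false
set_option linter.unusedSectionVars false
open Equiv Equiv.Perm

namespace Cfsg.Agent.Lib.Helper10.AbAlt

/-- the largest order of an abelian subgroup of `A_n`. -/
def gg : ℕ → ℕ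
  | 0 => 1 | 1 => 1 | 2 => 1 | 3 => 3 | 4 => 4 | 5 => 5 | 6 => 9 | 7 => 12 | 8 => 16
  | (n + 9) => 3 * gg (n + 6)

variable {α : Type*} [DecidableEq α] [Fintype α]

/-- permutations fixing every point outside `S`. -/
def Sy (S : Finset α) : Subgroup (Perm α) where
  carrier := {a | ∀ x, x ∉ S → a x = x}
  mul_mem' := by
    intro a b ha hb x hx
    rw [Perm.mul_apply, hb x hx, ha x hx]
  one_mem' := by
    intro x _
    rfl
  inv_mem' := by
    intro a ha x hx
    rw [Perm.inv_eq_iff_eq, ha x hx]

/-- even permutations fixing every point outside `S`. -/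
def Al (S : Finset α) : Subgroup (Perm α) := Sy S ⊓ alternatingGroup α

/-- commutative subgroup. -/
def Ab (A : Subgroup (Perm α)) : Prop := ∀ a ∈ A, ∀ b ∈ A, a * b = b * a

/-- the orbit of `x` under `A`, as a finset. -/
noncomputable def orb (A : Subgroup (Perm α)) (x : α) : Finset α := by
  classical exact Finset.univ.filter (fun y => ∃ a ∈ A, a x = y)

/-- the stabiliser of `x` in `A`, as a subgroup of the ambient group. -/
def stb (A : Subgroup (Perm α)) (x : α) : Subgroup (Perm α) := A ⊓ MulAction.stabilizer (Perm α) x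

/-- extremal: even, abelian, supported on `S`, of order `gg |S|`. -/
structure Ext (S : Finset α) (A : Subgroup (Perm α)) : Prop where
  le : A ≤ Al S
  ab : Ab A
  card : Nat.card A = gg S.card

theorem mem_Sy {S : Finset α} {a : Perm α} : a ∈ Sy S ↔ ∀ x, x ∉ S → a x = x := Iff.rfl

theorem mem_Al {S : Finset α} {a : Perm α} : a ∈ Al S ↔ (∀ x, x ∉ S → a x = x) ∧ sign a = 1 := by
  rw [Al, Subgroup.mem_inf, mem_Sy, Equiv.Perm.mem_alternatingGroup]

theorem Al_le_Sy (S : Finset α) : Al S ≤ Sy S := inf_le_left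

theorem mem_orb {A : Subgroup (Perm α)} {x y : α} : y ∈ orb A x ↔ ∃ a ∈ A, a x = y := by
  classical
  simp [orb]

theorem mem_stb {A : Subgroup (Perm α)} {x : α} {a : Perm α} : a ∈ stb A x ↔ a ∈ A ∧ a x = x := by
  rw [stb, Subgroup.mem_inf, MulAction.mem_stabilizer_iff]
  rfl

theorem stb_le (A : Subgroup (Perm α)) (x : α) : stb A x ≤ A := inf_le_left

theorem Sy_mono {S S' : Finset α} (h : S ⊆ S') : Sy S ≤ Sy S' :=
  fun _ ha x hx => ha x (fun hxs => hx (h hxs))

theorem Al_mono {S S' : Finset α} (h : S ⊆ S') : Al S ≤ Al S' :=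
  inf_le_inf_right _ (Sy_mono h)

theorem Ab.mono {A B : Subgroup (Perm α)} (hB : Ab B) (h : A ≤ B) : Ab A :=
  fun a ha b hb => hB a (h ha) b (h hb)

end Cfsg.Agent.Lib.Helper10.AbAlt
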