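import Cfsg.Agent.Lib.Helper10.AbAlt.ST2

/-! S2506 farm, pieces E (existence, relative to the small cases) + O4. -/

set_option autoImplicit false
set_option linter.unusedSectionVars false
open Equiv Equiv.Perm
open scoped Pointwise

namespace Cfsg.Agent.Lib.Helper10.AbAlt

variable {α : Type*} [DecidableEq α] [Fintype α]

theorem exists_step (s : ℕ) (hs : 3 ≤ s) :
    ∃ t, (t = 3 ∨ t = 4 ∨ t = 5) ∧ t ≤ s ∧ gg s = t * gg (s - t) := by
  by_cases h4 : s = 4
  · subst h4
    exact ⟨4, by simp, le_refl _, by decide⟩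
  by_cases h8 : s = 8
  · subst h8
    exact ⟨4, by simp, by omega, by decide⟩
  by_cases h5 : s = 5
  · subst h5
    exact ⟨5, by simp, le_refl _, by decide⟩
  exact ⟨3, by simp, hs, gg_eq_three_mul s hs h4 h5 h8⟩

theorem exists_ext_aux
    (hsm : ∀ T : Finset α, (T.card = 3 ∨ T.card = 4 ∨ T.card = 5) →
      ∃ R : Subgroup (Perm α), R ≤ Al T ∧ Ab R ∧ Nat.card R = T.card) :
    ∀ (n : ℕ) (S : Finset α), S.card = n → ∃ A : Subgroup (Perm α), Ext S A := by
  intro n
  induction n using Nat.strong_induction_on with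
  | _ n ih =>
    intro S hS
    by_cases hs : S.card ≤ 2
    · refine ⟨⊥, bot_le, ?_, ?_⟩
      · intro a ha b hb
        rw [Subgroup.mem_bot.1 ha, Subgroup.mem_bot.1 hb]
      · rw [Subgroup.card_bot]
        have : S.card = 0 ∨ S.card = 1 ∨ S.card = 2 := by omega
        rcases this with h | h | h <;> rw [h] <;> rfl
    · obtain ⟨t, ht, hts, hg⟩ := exists_step S.card (by omega)
      obtain ⟨T, hTS, hTc⟩ := Finset.exists_subset_card_eq hts
      obtain ⟨R, hR, hRa, hRc⟩ := hsm T (by rw [hTc]; exact ht)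
      have hsd : (S \ T).card = S.card - t := by rw [Finset.card_sdiff_of_subset hTS, hTc]
      have htpos : 0 < t := by rcases ht with h | h | h <;> omega
      obtain ⟨K, hK⟩ := ih (S \ T).card (by omega) (S \ T) rfl
      have hdis : Disjoint T (S \ T) := Finset.disjoint_sdiff
      have hRS := hR.trans (Al_le_Sy T)
      have hKS := hK.le.trans (Al_le_Sy _)
      refine ⟨R ⊔ K, sup_le (hR.trans (Al_mono hTS)) (hK.le.trans (Al_mono Finset.sdiff_subset)),
        ab_sup_of_disjoint hdis hRS hKS hRa hK.ab, ?_⟩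
      rw [card_sup_of_disjoint hdis hRS hKS, hRc, hK.card, hTc, hsd, hg]

theorem exists_ext_of
    (hsm : ∀ T : Finset α, (T.card = 3 ∨ T.card = 4 ∨ T.card = 5) →
      ∃ R : Subgroup (Perm α), R ≤ Al T ∧ Ab R ∧ Nat.card R = T.card) (S : Finset α) :
    ∃ A : Subgroup (Perm α), Ext S A :=
  exists_ext_aux hsm _ S rfl

theorem exists_orbit_four_aux : ∀ (n : ℕ) (S : Finset α), S.card = n → ∀ A : Subgroup (Perm α), Ext S A →
    ¬ 3 ∣ n → 4 ≤ n → n ≠ 5 → ∃ x ∈ S, (orb A x).card = 4 := by
  intro n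
  induction n using Nat.strong_induction_on with
  | _ n ih =>
    intro S hS A h h3 h4 h5
    obtain ⟨x, hx⟩ : S.Nonempty := Finset.card_pos.1 (by omega)
    have hs : 3 ≤ S.card := by omega
    have hASy := h.le.trans (Al_le_Sy S)
    obtain ⟨ht, he, hK⟩ := ext_orbit h hs hx
    obtain ⟨hsd, htpos, htle⟩ := card_sdiff_orb hASy hx
    rcases ht with ht | ht | ht
    · rw [ht, hS] at he hsd
      have hn4 : n ≠ 4 := by
        rintro rfl
        revert he
        decide
      have hn8 : n ≠ 8 := by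
        rintro rfl
        revert he
        decide
      obtain ⟨y, hy, hyc⟩ := ih (n - 3) (by omega) (S \ orb A x) hsd (stb A x) hK (by omega) (by omega)
        (by omega)
      refine ⟨y, (Finset.mem_sdiff.1 hy).1, ?_⟩
      rw [← hyc]
      congr 1
      ext z
      rw [mem_orb, mem_orb]
      constructor
      · rintro ⟨a, ha, rfl⟩
        obtain ⟨-, hsplit⟩ := ext_split h hs hx
        rw [hsplit] at ha
        obtain ⟨r, hr, k, hk, rfl⟩ := (mem_sup_of_disjoint Finset.disjoint_sdiff inf_le_right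
          (stb_le_Sy hASy h.ab x) a).1 ha
        refine ⟨k, hk, ?_⟩
        rw [Perm.mul_apply]
        symm
        apply (Subgroup.mem_inf.1 hr).2
        intro hky
        exact (Finset.mem_sdiff.1 hy).2 ((apply_mem_orb_iff (stb_le A x hk) x y).2 hky)
      · rintro ⟨k, hk, rfl⟩
        exact ⟨k, stb_le A x hk, rfl⟩
    · exact ⟨x, hx, ht⟩
    · rw [ht] at he htle
      have := five_mul_lt S.card (by omega)
      omega

theorem exists_orbit_four {S : Finset α} {A : Subgroup (Perm α)} (h : Ext S A) (h3 : ¬ 3 ∣ S.card)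
    (h4 : 4 ≤ S.card) (h5 : S.card ≠ 5) : ∃ x ∈ S, (orb A x).card = 4 :=
  exists_orbit_four_aux _ S rfl A h h3 h4 h5

end Cfsg.Agent.Lib.Helper10.AbAlt
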