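import Cfsg.Agent.Lib.Helper10.AbAlt.Defs

/-! S2506 farm, piece L1: orbits and stabilisers. -/

set_option autoImplicit false
set_option linter.unusedSectionVars false
open Equiv Equiv.Perm

namespace Cfsg.Agent.Lib.Helper10.AbAlt

variable {α : Type*} [DecidableEq α] [Fintype α]

theorem self_mem_orb (A : Subgroup (Perm α)) (x : α) : x ∈ orb A x :=
  mem_orb.2 ⟨1, one_mem _, rfl⟩

theorem apply_mem_of_mem_Sy {S : Finset α} {a : Perm α} (ha : a ∈ Sy S) {x : α} (hx : x ∈ S) : a x ∈ S := by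
  by_contra h
  have h1 := ha (a x) h
  have h2 : a x = x := a.injective h1
  rw [h2] at h
  exact h hx

theorem orb_subset {S : Finset α} {A : Subgroup (Perm α)} (hA : A ≤ Sy S) {x : α} (hx : x ∈ S) :
    orb A x ⊆ S := by
  intro y hy
  obtain ⟨a, ha, rfl⟩ := mem_orb.1 hy
  exact apply_mem_of_mem_Sy (hA ha) hx

theorem apply_mem_orb_iff {A : Subgroup (Perm α)} {a : Perm α} (ha : a ∈ A) (x y : α) :
    y ∈ orb A x ↔ a y ∈ orb A x := by
  constructor
  · intro hy
    obtain ⟨b, hb, rfl⟩ := mem_orb.1 hy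
    exact mem_orb.2 ⟨a * b, mul_mem ha hb, rfl⟩
  · intro hy
    obtain ⟨b, hb, hb'⟩ := mem_orb.1 hy
    refine mem_orb.2 ⟨a⁻¹ * b, mul_mem (inv_mem ha) hb, ?_⟩
    rw [Perm.mul_apply, hb']
    simp

theorem orb_eq_of_mem {A : Subgroup (Perm α)} {x y : α} (hy : y ∈ orb A x) : orb A y = orb A x := by
  obtain ⟨a, ha, rfl⟩ := mem_orb.1 hy
  ext z
  rw [mem_orb, mem_orb]
  constructor
  · rintro ⟨b, hb, rfl⟩
    exact ⟨b * a, mul_mem hb ha, rfl⟩
  · rintro ⟨b, hb, rfl⟩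
    refine ⟨b * a⁻¹, mul_mem hb (inv_mem ha), ?_⟩
    simp

theorem stb_fixes {A : Subgroup (Perm α)} (hab : Ab A) {x : α} {k : Perm α} (hk : k ∈ stb A x) {y : α}
    (hy : y ∈ orb A x) : k y = y := by
  obtain ⟨a, ha, rfl⟩ := mem_orb.1 hy
  obtain ⟨hkA, hkx⟩ := mem_stb.1 hk
  have h1 : (k * a) x = (a * k) x := by rw [hab k hkA a ha]
  rw [Perm.mul_apply, Perm.mul_apply, hkx] at h1
  exact h1

theorem stb_le_Sy {S : Finset α} {A : Subgroup (Perm α)} (hA : A ≤ Sy S) (hab : Ab A) (x : α) :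
    stb A x ≤ Sy (S \ orb A x) := by
  intro k hk y hy
  by_cases hyS : y ∈ S
  · have hyT : y ∈ orb A x := by
      by_contra h
      exact hy (Finset.mem_sdiff.2 ⟨hyS, h⟩)
    exact stb_fixes hab hk hyT
  · exact hA (stb_le A x hk) y hyS

theorem stb_le_Al {S : Finset α} {A : Subgroup (Perm α)} (hA : A ≤ Al S) (hab : Ab A) (x : α) :
    stb A x ≤ Al (S \ orb A x) := by
  intro k hk
  exact mem_Al.2 ⟨stb_le_Sy (hA.trans (Al_le_Sy S)) hab x hk, (mem_Al.1 (hA (stb_le A x hk))).2⟩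

theorem card_eq_orb_mul (A : Subgroup (Perm α)) (x : α) :
    Nat.card A = (orb A x).card * Nat.card (stb A x) := by
  classical
  have h1 := MulAction.card_orbit_mul_card_stabilizer_eq_card_group A x
  have h2 : Fintype.card (MulAction.orbit A x) = (orb A x).card := by
    rw [← Fintype.card_coe]
    refine Fintype.card_congr (Equiv.subtypeEquivRight (fun y => ?_))
    rw [mem_orb, MulAction.mem_orbit_iff]
    constructor
    · rintro ⟨a, rfl⟩
      exact ⟨a.1, a.2, rfl⟩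
    · rintro ⟨a, ha, rfl⟩
      exact ⟨⟨a, ha⟩, rfl⟩
  have h3 : Fintype.card (MulAction.stabilizer A x) = Nat.card (stb A x) := by
    rw [← Nat.card_eq_fintype_card]
    refine Nat.card_congr
      { toFun := fun k => ⟨k.1.1, mem_stb.2 ⟨k.1.2, k.2⟩⟩
        invFun := fun k => ⟨⟨k.1, (mem_stb.1 k.2).1⟩, (mem_stb.1 k.2).2⟩
        left_inv := fun k => rfl
        right_inv := fun k => rfl }
  rw [Nat.card_eq_fintype_card, ← h1, h2, h3]

end Cfsg.Agent.Lib.Helper10.AbAlt
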