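import Cfsg.Agent.Lib.Helper10.AbAlt.N
import Cfsg.Agent.Lib.Helper10.AbAlt.L1
import Cfsg.Agent.Lib.Helper10.AbAlt.DEC

/-! S2506 farm, pieces L2 + Z + CJ. -/

set_option autoImplicit false
set_option linter.unusedSectionVars false
open Equiv Equiv.Perm
open scoped Pointwise

namespace Cfsg.Agent.Lib.Helper10.AbAlt

variable {α : Type*} [DecidableEq α] [Fintype α]

theorem card_sdiff_orb {S : Finset α} {A : Subgroup (Perm α)} (hA : A ≤ Sy S) {x : α} (hx : x ∈ S) :
    (S \ orb A x).card = S.card - (orb A x).card ∧ 0 < (orb A x).card ∧ (orb A x).card ≤ S.card :=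
  ⟨Finset.card_sdiff_of_subset (orb_subset hA hx), Finset.card_pos.2 ⟨x, self_mem_orb A x⟩,
    Finset.card_le_card (orb_subset hA hx)⟩

theorem card_cube_le_aux : ∀ (n : ℕ) (S : Finset α), S.card = n → ∀ A : Subgroup (Perm α), A ≤ Sy S → Ab A →
    Nat.card A ^ 3 ≤ 3 ^ n := by
  intro n
  induction n using Nat.strong_induction_on with
  | _ n ih =>
    intro S hS A hA hab
    rcases S.eq_empty_or_nonempty with rfl | ⟨x, hx⟩
    · have : A = ⊥ := by
        rw [eq_bot_iff]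
        intro a ha
        rw [Subgroup.mem_bot]
        ext y
        exact hA ha y (Finset.notMem_empty y)
      subst this
      simp [Nat.one_le_pow]
    · obtain ⟨hsd, htpos, htle⟩ := card_sdiff_orb hA hx
      have hc := card_eq_orb_mul A x
      rw [hS] at hsd htle
      have hK := ih _ (by omega) (S \ orb A x) hsd (stb A x) (stb_le_Sy hA hab x) (hab.mono (stb_le A x))
      rw [hc, mul_pow]
      calc (orb A x).card ^ 3 * Nat.card (stb A x) ^ 3
          ≤ 3 ^ (orb A x).card * 3 ^ (n - (orb A x).card) := Nat.mul_le_mul (cube_le_pow _) hK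
        _ = 3 ^ n := by
          rw [← pow_add]
          congr 1
          omega

theorem card_cube_le {S : Finset α} {A : Subgroup (Perm α)} (hA : A ≤ Sy S) (hab : Ab A) :
    Nat.card A ^ 3 ≤ 3 ^ S.card :=
  card_cube_le_aux _ S rfl A hA hab

theorem Al_eq_bot {S : Finset α} (h : S.card ≤ 2) : Al S = ⊥ := by
  rw [eq_bot_iff]
  intro a ha
  obtain ⟨h1, h2⟩ := mem_Al.1 ha
  rw [Subgroup.mem_bot]
  have hsub : a.support ⊆ S := by
    intro y hy
    by_contra hyS
    exact (Perm.mem_support.1 hy) (h1 y hyS)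
  have hc : a.support.card ≤ 2 := (Finset.card_le_card hsub).trans h
  have h3 : a.support.card ≠ 1 := Perm.card_support_ne_one a
  rcases Nat.lt_or_ge a.support.card 1 with h0 | h0
  · exact Perm.card_support_eq_zero.1 (by omega)
  · have h4 : a.support.card = 2 := by omega
    have h5 := (Perm.card_support_eq_two.1 h4).sign_eq
    rw [h2] at h5
    exact absurd h5 (by decide)

theorem mem_conj_smul {σ a : Perm α} {A : Subgroup (Perm α)} : a ∈ MulAut.conj σ • A ↔ σ⁻¹ * a * σ ∈ A := by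
  rw [Subgroup.mem_pointwise_smul_iff_inv_smul_mem, MulAut.smul_def, MulAut.conj_inv_apply]

theorem card_conj_smul (σ : Perm α) (A : Subgroup (Perm α)) :
    Nat.card (MulAut.conj σ • A : Subgroup (Perm α)) = Nat.card A :=
  (Nat.card_congr (Subgroup.equivSMul (MulAut.conj σ) A).toEquiv).symm

theorem conj_le_Al {S : Finset α} {A : Subgroup (Perm α)} (hA : A ≤ Al S) {ρ : Perm α} (hρ : ρ ∈ Sy S) :
    MulAut.conj ρ • A ≤ Al S := by
  intro b hb
  have h1 := hA (mem_conj_smul.1 hb)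
  obtain ⟨h2, h3⟩ := mem_Al.1 h1
  have h4 : b = ρ * (ρ⁻¹ * b * ρ) * ρ⁻¹ := by group
  refine mem_Al.2 ⟨?_, ?_⟩
  · have h5 : ρ * (ρ⁻¹ * b * ρ) * ρ⁻¹ ∈ Sy S := mul_mem (mul_mem hρ h2) (inv_mem hρ)
    rw [← h4] at h5
    exact h5
  · rw [map_mul, map_mul, map_inv] at h3
    rw [← h3, mul_comm (sign ρ)⁻¹, mul_assoc, inv_mul_cancel, mul_one]

theorem ext_conj {S : Finset α} {A : Subgroup (Perm α)} (h : Ext S A) {ρ : Perm α} (hρ : ρ ∈ Sy S) :
    Ext S (MulAut.conj ρ • A) := by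
  refine ⟨conj_le_Al h.le hρ, ?_, by rw [card_conj_smul, h.card]⟩
  intro a ha b hb
  have h1 := h.ab _ (mem_conj_smul.1 ha) _ (mem_conj_smul.1 hb)
  have h2 : ρ⁻¹ * (a * b) * ρ = ρ⁻¹ * (b * a) * ρ := by
    calc ρ⁻¹ * (a * b) * ρ = (ρ⁻¹ * a * ρ) * (ρ⁻¹ * b * ρ) := by group
      _ = (ρ⁻¹ * b * ρ) * (ρ⁻¹ * a * ρ) := h1
      _ = ρ⁻¹ * (b * a) * ρ := by group
  exact mul_left_cancel (mul_right_cancel h2)

theorem orb_conj (A : Subgroup (Perm α)) (ρ : Perm α) (x y : α) :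
    ρ y ∈ orb (MulAut.conj ρ • A) (ρ x) ↔ y ∈ orb A x := by
  rw [mem_orb, mem_orb]
  constructor
  · rintro ⟨b, hb, hbx⟩
    refine ⟨_, mem_conj_smul.1 hb, ?_⟩
    rw [Perm.mul_apply, Perm.mul_apply, hbx]
    simp
  · rintro ⟨a, ha, rfl⟩
    refine ⟨ρ * a * ρ⁻¹, mem_conj_smul.2 ?_, ?_⟩
    · have : ρ⁻¹ * (ρ * a * ρ⁻¹) * ρ = a := by group
      rw [this]
      exact ha
    · simp

theorem conj_smul_eq_of_disjoint {T U : Finset α} (hTU : Disjoint T U) {σ : Perm α} (hσ : σ ∈ Sy U)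
    {R : Subgroup (Perm α)} (hR : R ≤ Sy T) : MulAut.conj σ • R = R := by
  ext a
  rw [mem_conj_smul]
  constructor
  · intro h
    have h1 := commute_of_disjoint hTU (hR h) hσ
    have h2 : a = σ * (σ⁻¹ * a * σ) * σ⁻¹ := by group
    rw [h2, ← h1]
    simpa using h
  · intro h
    have h1 := commute_of_disjoint hTU (hR h) hσ
    rw [mul_assoc, h1]
    simpa using h

end Cfsg.Agent.Lib.Helper10.AbAlt
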