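import Cfsg.Agent.Lib.Helper10.AbAlt.EO
import Cfsg.Agent.Lib.Helper54.AbAlt.BT
import Cfsg.Agent.Lib.Helper54.AbAlt.EXS
import Cfsg.Agent.Lib.Helper54.AbAlt.MOVE

/-!
S2506: assembly (conjugacy of extremal groups, parity correction).
-/

set_option autoImplicit false
set_option linter.unusedSectionVars false
open Equiv Equiv.Perm
open scoped Pointwise

namespace Cfsg.Agent.Lib.Helper10.AbAlt

open Cfsg.Agent.Lib.Helper54.AbAlt

variable {α : Type*} [DecidableEq α] [Fintype α]

theorem exists_same_orbit {S : Finset α} {A B : Subgroup (Perm α)} (hA : Ext S A) (hB : Ext S B)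
    (hs : 3 ≤ S.card) : ∃ x ∈ S, ∃ y ∈ S, (orb A x).card = (orb B y).card := by
  obtain ⟨x0, hx0⟩ : S.Nonempty := Finset.card_pos.1 (by omega)
  by_cases h3 : 3 ∣ S.card
  · have key : ∀ {C : Subgroup (Perm α)}, Ext S C → (orb C x0).card = 3 := by
      intro C hC
      obtain ⟨ht, he, -⟩ := ext_orbit hC hs hx0
      have hle : (orb C x0).card ≤ S.card :=
        Finset.card_le_card (orb_subset (hC.le.trans (Al_le_Sy S)) hx0)
      rcases ht with ht | ht | ht
      · exact ht
      · exfalso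
        rw [ht] at he hle
        have := four_mul_lt S.card h3 hle
        omega
      · exfalso
        rw [ht] at he hle
        have h6 : 6 ≤ S.card := by
          obtain ⟨k, hk⟩ := h3
          omega
        have := five_mul_lt S.card h6
        omega
    exact ⟨x0, hx0, x0, hx0, by rw [key hA, key hB]⟩
  · by_cases h5 : S.card = 5
    · have key : ∀ {C : Subgroup (Perm α)}, Ext S C → (orb C x0).card = 5 := by
        intro C hC
        obtain ⟨ht, he, -⟩ := ext_orbit hC hs hx0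
        rcases ht with ht | ht | ht
        · exfalso
          rw [ht, h5] at he
          revert he
          decide
        · exfalso
          rw [ht, h5] at he
          revert he
          decide
        · exact ht
      exact ⟨x0, hx0, x0, hx0, by rw [key hA, key hB]⟩
    · have h4 : 4 ≤ S.card := by
        rcases Nat.lt_or_ge S.card 4 with h | h
        · exfalso
          apply h3
          have : S.card = 3 := by omega
          rw [this]
        · exact h
      obtain ⟨x, hx, hxc⟩ := exists_orbit_four hA h3 h4 h5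
      obtain ⟨y, hy, hyc⟩ := exists_orbit_four hB h3 h4 h5
      exact ⟨x, hx, y, hy, by rw [hxc, hyc]⟩

theorem inf_Sy_le_Al {S T : Finset α} {A : Subgroup (Perm α)} (hA : A ≤ Al S) : A ⊓ Sy T ≤ Al T := by
  intro a ha
  rw [Subgroup.mem_inf] at ha
  exact mem_Al.2 ⟨ha.2, (mem_Al.1 (hA ha.1)).2⟩

theorem conj_ext_aux : ∀ (n : ℕ) (S : Finset α), S.card = n → ∀ A B : Subgroup (Perm α), Ext S A → Ext S B →
    ∃ σ ∈ Sy S, MulAut.conj σ • A = B := by
  intro n
  induction n using Nat.strong_induction_on with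
  | _ n ih =>
    intro S hS A B hA hB
    by_cases hs : S.card ≤ 2
    · have h0 := Al_eq_bot hs
      have hA0 : A = ⊥ := by
        rw [eq_bot_iff, ← h0]
        exact hA.le
      have hB0 : B = ⊥ := by
        rw [eq_bot_iff, ← h0]
        exact hB.le
      exact ⟨1, one_mem _, by rw [hA0, hB0]; simp⟩
    · have hs3 : 3 ≤ S.card := by omega
      obtain ⟨x, hx, y, hy, hxy⟩ := exists_same_orbit hA hB hs3
      have hASy := hA.le.trans (Al_le_Sy S)
      have hBSy := hB.le.trans (Al_le_Sy S)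
      obtain ⟨ρ, hρ, hρT⟩ := exists_move (orb_subset hASy hx) (orb_subset hBSy hy) hxy
      have hA1e : Ext S (MulAut.conj ρ • A) := ext_conj hA hρ
      have hρx : ρ x ∈ S := orb_subset hBSy hy ((hρT x).1 (self_mem_orb A x))
      have horb : orb (MulAut.conj ρ • A) (ρ x) = orb B y := by
        ext z
        obtain ⟨w, rfl⟩ := ρ.surjective z
        rw [orb_conj, hρT]
      obtain ⟨hc1, hs1⟩ := ext_split hA1e hs3 hρx
      obtain ⟨hc2, hs2⟩ := ext_split hB hs3 hy
      obtain ⟨-, -, hK1⟩ := ext_orbit hA1e hs3 hρx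
      obtain ⟨ht2, -, hK2⟩ := ext_orbit hB hs3 hy
      rw [horb] at hc1 hs1 hK1
      have hTS : orb B y ⊆ S := orb_subset hBSy hy
      obtain ⟨τ, hτ, hτR⟩ := conj_small ht2 (inf_Sy_le_Al hA1e.le) (inf_Sy_le_Al hB.le) hc1 hc2
      have hlt : (S \ orb B y).card < n := by
        rw [← hS]
        refine Finset.card_lt_card ?_
        refine Finset.ssubset_iff_subset_ne.2 ⟨Finset.sdiff_subset, ?_⟩
        intro he
        have h1 : y ∈ S \ orb B y := by rw [he]; exact hy
        exact (Finset.mem_sdiff.1 h1).2 (self_mem_orb B y)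
      obtain ⟨σ0, hσ0, hσK⟩ := ih _ hlt (S \ orb B y) rfl _ _ hK1 hK2
      have hdis : Disjoint (orb B y) (S \ orb B y) := Finset.disjoint_sdiff
      refine ⟨τ * σ0 * ρ, ?_, ?_⟩
      · exact mul_mem (mul_mem (Sy_mono hTS (Al_le_Sy _ hτ)) (Sy_mono Finset.sdiff_subset hσ0)) hρ
      · rw [map_mul, map_mul, mul_smul, mul_smul, hs1, Subgroup.smul_sup, Subgroup.smul_sup,
          conj_smul_eq_of_disjoint hdis hσ0 inf_le_right, hτR, hσK,
          conj_smul_eq_of_disjoint hdis.symm (Al_le_Sy _ hτ) (hK2.le.trans (Al_le_Sy _)), ← hs2]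

theorem conj_ext {S : Finset α} {A B : Subgroup (Perm α)} (hA : Ext S A) (hB : Ext S B) :
    ∃ σ ∈ Sy S, MulAut.conj σ • A = B :=
  conj_ext_aux _ S rfl A B hA hB

theorem exists_odd_normalizing {S : Finset α} {A : Subgroup (Perm α)} (h : Ext S A) (hs : 3 ≤ S.card) :
    ∃ ν ∈ Sy S, sign ν = -1 ∧ MulAut.conj ν • A = A := by
  obtain ⟨x, hx⟩ : S.Nonempty := Finset.card_pos.1 (by omega)
  obtain ⟨hc, hsplit⟩ := ext_split h hs hx
  obtain ⟨ht, -, hK⟩ := ext_orbit h hs hx
  have hTS : orb A x ⊆ S := orb_subset (h.le.trans (Al_le_Sy S)) hx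
  have h2 : 1 < (orb A x).card := by
    rcases ht with ht | ht | ht <;> omega
  obtain ⟨p, hp, q, hq, hpq⟩ := Finset.one_lt_card.1 h2
  have hπ : swap p q ∈ Sy (orb A x) := by
    intro z hz
    exact swap_apply_of_ne_of_ne (fun e => hz (e ▸ hp)) (fun e => hz (e ▸ hq))
  have hR : A ⊓ Sy (orb A x) ≤ Al (orb A x) := inf_Sy_le_Al h.le
  obtain ⟨τ, hτ, hτR⟩ := conj_small ht (conj_le_Al hR hπ) hR (by rw [card_conj_smul, hc]) hc
  have hdis : Disjoint (orb A x) (S \ orb A x) := Finset.disjoint_sdiff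
  have hν : τ * swap p q ∈ Sy (orb A x) := mul_mem (Al_le_Sy _ hτ) hπ
  refine ⟨τ * swap p q, Sy_mono hTS hν, ?_, ?_⟩
  · rw [map_mul, (mem_Al.1 hτ).2, sign_swap hpq, one_mul]
  · conv_lhs => rw [hsplit]
    rw [Subgroup.smul_sup, conj_smul_eq_of_disjoint hdis.symm hν (hK.le.trans (Al_le_Sy _)),
      map_mul, mul_smul, hτR, ← hsplit]

/-- even conjugating element. -/
theorem conj_ext_even {S : Finset α} {A B : Subgroup (Perm α)} (hA : Ext S A) (hB : Ext S B) :
    ∃ σ ∈ Al S, MulAut.conj σ • A = B := by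
  by_cases hs : S.card ≤ 2
  · have h0 := Al_eq_bot hs
    have hA0 : A = ⊥ := by
      rw [eq_bot_iff, ← h0]
      exact hA.le
    have hB0 : B = ⊥ := by
      rw [eq_bot_iff, ← h0]
      exact hB.le
    exact ⟨1, one_mem _, by rw [hA0, hB0]; simp⟩
  · have hs3 : 3 ≤ S.card := by omega
    obtain ⟨σ, hσ, hσA⟩ := conj_ext hA hB
    rcases Int.units_eq_one_or (sign σ) with h1 | h1
    · exact ⟨σ, mem_Al.2 ⟨hσ, h1⟩, hσA⟩
    · obtain ⟨ν, hν, hνs, hνA⟩ := exists_odd_normalizing hA hs3
      refine ⟨σ * ν, mem_Al.2 ⟨mul_mem hσ hν, ?_⟩, ?_⟩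
      · rw [map_mul, h1, hνs]
        rfl
      · rw [map_mul, mul_smul, hνA, hσA]

theorem exists_ext (S : Finset α) : ∃ A : Subgroup (Perm α), Ext S A :=
  exists_ext_of (fun _ hT => exists_small hT) S

end Cfsg.Agent.Lib.Helper10.AbAlt
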