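import Cfsg.Agent.Lib.Helper10.AbAlt.Defs

/-! S2506 farm, piece N: numerics of `gg`. -/

set_option autoImplicit false

namespace Cfsg.Agent.Lib.Helper10.AbAlt

theorem gg_add_nine (n : ℕ) : gg (n + 9) = 3 * gg (n + 6) := by
  rw [gg]

/-- induction with step three starting at `6`. -/
theorem step_three {P : ℕ → Prop} (b : ℕ) (h0 : P b) (h1 : P (b + 1)) (h2 : P (b + 2))
    (hstep : ∀ n, b ≤ n → P n → P (n + 3)) : ∀ n, b ≤ n → P n := by
  intro n
  induction n using Nat.strong_induction_on with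
  | _ n ih =>
    intro hn
    by_cases h : n < b + 3
    · have : n = b ∨ n = b + 1 ∨ n = b + 2 := by omega
      rcases this with rfl | rfl | rfl
      · exact h0
      · exact h1
      · exact h2
    · obtain ⟨m, rfl⟩ : ∃ m, n = m + 3 := ⟨n - 3, by omega⟩
      exact hstep m (by omega) (ih m (by omega) (by omega))

theorem gg_add_three (n : ℕ) (hn : 6 ≤ n) : gg (n + 3) = 3 * gg n := by
  obtain ⟨m, rfl⟩ : ∃ m, n = m + 6 := ⟨n - 6, by omega⟩
  exact gg_add_nine m

theorem small_cases {P : ℕ → Prop} (h0 : P 0) (h1 : P 1) (h2 : P 2) (h3 : P 3) (h4 : P 4) (h5 : P 5)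
    (h : ∀ n, 6 ≤ n → P n) : ∀ n, P n := by
  intro n
  by_cases hn : 6 ≤ n
  · exact h n hn
  · have : n = 0 ∨ n = 1 ∨ n = 2 ∨ n = 3 ∨ n = 4 ∨ n = 5 := by omega
    rcases this with rfl | rfl | rfl | rfl | rfl | rfl <;> assumption

theorem gg_pos (m : ℕ) : 0 < gg m := by
  refine small_cases (P := fun m => 0 < gg m) (by decide) (by decide) (by decide) (by decide) (by decide) (by decide) ?_ m
  refine step_three (P := fun m => 0 < gg m) 6 (by decide) (by decide) (by decide) ?_
  intro n hn h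
  rw [gg_add_three n hn]
  omega

theorem gg_cube_le (m : ℕ) : gg m ^ 3 ≤ 3 ^ m := by
  refine small_cases (P := fun m => gg m ^ 3 ≤ 3 ^ m) (by decide) (by decide) (by decide) (by decide)
    (by decide) (by decide) ?_ m
  refine step_three (P := fun m => gg m ^ 3 ≤ 3 ^ m) 6 (by decide) (by decide) (by decide) ?_
  intro n hn h
  rw [gg_add_three n hn, mul_pow, pow_add]
  nlinarith

theorem pow_le_two_gg (s : ℕ) (hs : 3 ≤ s) : 3 ^ s ≤ 2 * gg s ^ 3 := by
  revert hs
  refine small_cases (P := fun s => 3 ≤ s → 3 ^ s ≤ 2 * gg s ^ 3) (by decide) (by decide) (by decide)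
    (by decide) (by decide) (by decide) ?_ s
  intro n hn _
  refine step_three (P := fun s => 3 ^ s ≤ 2 * gg s ^ 3) 6 (by decide) (by decide) (by decide) ?_ n hn
  intro n hn h
  rw [gg_add_three n hn, mul_pow, pow_add]
  nlinarith

theorem gg_pred_lt (s : ℕ) (hs : 3 ≤ s) : gg (s - 1) < gg s := by
  revert hs
  refine small_cases (P := fun s => 3 ≤ s → gg (s - 1) < gg s) (by decide) (by decide) (by decide)
    (by decide) (by decide) (by decide) ?_ s
  intro n hn _
  by_cases h6 : n = 6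
  · subst h6
    decide
  have hn7 : 7 ≤ n := by omega
  refine step_three (P := fun n => gg (n - 1) < gg n) 7 (by decide) (by decide) (by decide) ?_ n hn7
  intro n hn h
  have h1 : n + 3 - 1 = (n - 1) + 3 := by omega
  rw [h1, gg_add_three n (by omega), gg_add_three (n - 1) (by omega)]
  omega

theorem five_mul_lt (s : ℕ) (hs : 6 ≤ s) : 5 * gg (s - 5) < gg s := by
  by_cases h : s < 11
  · have : s = 6 ∨ s = 7 ∨ s = 8 ∨ s = 9 ∨ s = 10 := by omega
    rcases this with rfl | rfl | rfl | rfl | rfl <;> decide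
  · refine step_three (P := fun n => 5 * gg (n - 5) < gg n) 11 (by decide) (by decide) (by decide) ?_ s (by omega)
    intro n hn h
    have h1 : n + 3 - 5 = (n - 5) + 3 := by omega
    rw [h1, gg_add_three n (by omega), gg_add_three (n - 5) (by omega)]
    omega

theorem four_mul_le (s : ℕ) (hs : 4 ≤ s) : 4 * gg (s - 4) ≤ gg s := by
  by_cases h : s < 10
  · have : s = 4 ∨ s = 5 ∨ s = 6 ∨ s = 7 ∨ s = 8 ∨ s = 9 := by omega
    rcases this with rfl | rfl | rfl | rfl | rfl | rfl <;> decide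
  · refine step_three (P := fun n => 4 * gg (n - 4) ≤ gg n) 10 (by decide) (by decide) (by decide) ?_ s (by omega)
    intro n hn h
    have h1 : n + 3 - 4 = (n - 4) + 3 := by omega
    rw [h1, gg_add_three n (by omega), gg_add_three (n - 4) (by omega)]
    omega

theorem three_mul_le (s : ℕ) (hs : 3 ≤ s) : 3 * gg (s - 3) ≤ gg s := by
  by_cases h : s < 9
  · have : s = 3 ∨ s = 4 ∨ s = 5 ∨ s = 6 ∨ s = 7 ∨ s = 8 := by omega
    rcases this with rfl | rfl | rfl | rfl | rfl | rfl <;> decide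
  · obtain ⟨m, rfl⟩ : ∃ m, s = m + 3 := ⟨s - 3, by omega⟩
    rw [Nat.add_sub_cancel, gg_add_three m (by omega)]

theorem mul_gg_le (s t : ℕ) (ht : t = 3 ∨ t = 4 ∨ t = 5) (hts : t ≤ s) : t * gg (s - t) ≤ gg s := by
  rcases ht with rfl | rfl | rfl
  · exact three_mul_le s hts
  · exact four_mul_le s hts
  · by_cases h : s = 5
    · subst h
      decide
    · exact (five_mul_lt s (by omega)).le

theorem four_mul_lt (s : ℕ) (h3 : 3 ∣ s) (hs : 4 ≤ s) : 4 * gg (s - 4) < gg s := by
  obtain ⟨k, rfl⟩ := h3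
  have hk : 2 ≤ k := by omega
  clear hs
  induction k, hk using Nat.le_induction with
  | base => decide
  | succ k hk ih =>
    by_cases h2 : k = 2
    · subst h2
      decide
    by_cases h3 : k = 3
    · subst h3
      decide
    have h1 : 3 * (k + 1) - 4 = (3 * k - 4) + 3 := by omega
    have h2 : 3 * (k + 1) = 3 * k + 3 := by ring
    rw [h1, h2, gg_add_three (3 * k) (by omega), gg_add_three (3 * k - 4) (by omega)]
    omega

theorem gg_eq_three_mul (s : ℕ) (hs : 3 ≤ s) (h4 : s ≠ 4) (h5 : s ≠ 5) (h8 : s ≠ 8) :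
    gg s = 3 * gg (s - 3) := by
  by_cases h : s < 9
  · have : s = 3 ∨ s = 6 ∨ s = 7 := by omega
    rcases this with rfl | rfl | rfl <;> decide
  · obtain ⟨m, rfl⟩ : ∃ m, s = m + 3 := ⟨s - 3, by omega⟩
    rw [Nat.add_sub_cancel, gg_add_three m (by omega)]

theorem two_cube_lt (t : ℕ) (ht : 6 ≤ t) : 2 * t ^ 3 < 3 ^ t := by
  induction t, ht using Nat.le_induction with
  | base => decide
  | succ t ht ih =>
    rw [pow_succ 3 t]
    have h1 : (t + 1) ^ 3 ≤ 3 * t ^ 3 := by
      nlinarith [sq_nonneg t, Nat.mul_le_mul ht ht, Nat.mul_le_mul (Nat.mul_le_mul ht ht) (le_refl t)]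
    omega

theorem cube_le_pow (t : ℕ) : t ^ 3 ≤ 3 ^ t := by
  refine small_cases (P := fun t => t ^ 3 ≤ 3 ^ t) (by decide) (by decide) (by decide) (by decide) (by decide) (by decide) ?_ t
  intro n hn
  have := two_cube_lt n hn
  omega

end Cfsg.Agent.Lib.Helper10.AbAlt
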