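import Cfsg.Agent.Lib.Helper10.AbAlt.L2

/-! S2506 farm, pieces OB + U + ST1. -/

set_option autoImplicit false
set_option linter.unusedSectionVars false
open Equiv Equiv.Perm
open scoped Pointwise

namespace Cfsg.Agent.Lib.Helper10.AbAlt

variable {α : Type*} [DecidableEq α] [Fintype α]

theorem ab_sup_zpowers {K : Subgroup (Perm α)} (hKa : Ab K) {c : Perm α} (hcK : ∀ k ∈ K, c * k = k * c) :
    Ab (K ⊔ Subgroup.zpowers c) := by
  have h1 : K ⊔ Subgroup.zpowers c = Subgroup.closure ((K : Set (Perm α)) ∪ {c}) := by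
    rw [Subgroup.closure_union, Subgroup.closure_eq, Subgroup.zpowers_eq_closure]
  have hcomm : ∀ a ∈ ((K : Set (Perm α)) ∪ {c}), ∀ b ∈ ((K : Set (Perm α)) ∪ {c}), a * b = b * a := by
    rintro a (ha | ha) b (hb | hb)
    · exact hKa a ha b hb
    · rw [Set.mem_singleton_iff.1 hb]
      exact (hcK a ha).symm
    · rw [Set.mem_singleton_iff.1 ha]
      exact hcK b hb
    · rw [Set.mem_singleton_iff.1 ha, Set.mem_singleton_iff.1 hb]
  rw [h1]
  intro a ha b hb
  have hI := Subgroup.isMulCommutative_closure hcomm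
  exact congrArg Subtype.val
    (hI.is_comm.comm (⟨a, ha⟩ : Subgroup.closure ((K : Set (Perm α)) ∪ {c})) ⟨b, hb⟩)

theorem two_mul_card_le {H K : Subgroup (Perm α)} (h : H < K) : 2 * Nat.card H ≤ Nat.card K := by
  obtain ⟨m, hm⟩ := Subgroup.card_dvd_of_le h.le
  have hpos : 0 < Nat.card K := Nat.card_pos
  have hposH : 0 < Nat.card H := Nat.card_pos
  have hne : Nat.card H ≠ Nat.card K := fun he => h.ne (Subgroup.eq_of_le_of_card_ge h.le he.ge)
  rcases m with _ | _ | m
  · simp at hm
    omega
  · simp at hm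
    omega
  · rw [hm]
    nlinarith

theorem extend_bound {U : Finset α} {K : Subgroup (Perm α)} (hK : K ≤ Sy U) (hKa : Ab K) {c : Perm α}
    (hc : c ∈ Sy U) (hcK : ∀ k ∈ K, c * k = k * c) (hcn : c ∉ K) : (2 * Nat.card K) ^ 3 ≤ 3 ^ U.card := by
  have hW : K ⊔ Subgroup.zpowers c ≤ Sy U := sup_le hK (by rwa [Subgroup.zpowers_le])
  have hlt : K < K ⊔ Subgroup.zpowers c := by
    refine lt_of_le_of_ne le_sup_left ?_
    intro he
    apply hcn
    rw [he]
    exact Subgroup.mem_sup_right (Subgroup.mem_zpowers c)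
  exact (Nat.pow_le_pow_left (two_mul_card_le hlt) 3).trans (card_cube_le hW (ab_sup_zpowers hKa hcK))

theorem orbit_bound {S : Finset α} {A : Subgroup (Perm α)} (hA : A ≤ Al S) (hab : Ab A) {x : α} (hx : x ∈ S)
    (hs : 3 ≤ S.card) (hIH : Nat.card (stb A x) ≤ gg (S \ orb A x).card) :
    ((orb A x).card = 3 ∨ (orb A x).card = 4 ∨ (orb A x).card = 5) ∨ Nat.card A < gg S.card := by
  have hASy := hA.trans (Al_le_Sy S)
  obtain ⟨hsd, htpos, htle⟩ := card_sdiff_orb hASy hx
  have hc := card_eq_orb_mul A x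
  have hN2 := pow_le_two_gg S.card hs
  by_cases h345 : (orb A x).card = 3 ∨ (orb A x).card = 4 ∨ (orb A x).card = 5
  · exact Or.inl h345
  right
  have hcases : (orb A x).card = 1 ∨ (orb A x).card = 2 ∨ 6 ≤ (orb A x).card := by omega
  rcases hcases with h1 | h2 | h6
  · rw [hsd, h1] at hIH
    rw [hc, h1, one_mul]
    exact lt_of_le_of_lt hIH (gg_pred_lt S.card hs)
  · obtain ⟨y, hy, hyx⟩ := Finset.exists_mem_ne (by omega : 1 < (orb A x).card) x
    have hT : orb A x = {x, y} := by
      symm
      refine Finset.eq_of_subset_of_card_le ?_ ?_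
      · intro z hz
        rcases Finset.mem_insert.1 hz with rfl | hz
        · exact self_mem_orb A _
        · rw [Finset.mem_singleton.1 hz]
          exact hy
      · rw [h2, Finset.card_pair hyx.symm]
    obtain ⟨a, ha, hax⟩ := mem_orb.1 hy
    have hay : a y = x := by
      have h3 : a y ∈ orb A x := (apply_mem_orb_iff ha x y).1 hy
      rw [hT, Finset.mem_insert, Finset.mem_singleton] at h3
      rcases h3 with h3 | h3
      · exact h3
      · exfalso
        rw [← hax] at h3
        have h4 := a.injective h3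
        rw [hax] at h4
        exact hyx h4
    have hsw : swap x y ∈ Sy (orb A x) := by
      intro z hz
      rw [hT, Finset.mem_insert, Finset.mem_singleton, not_or] at hz
      exact swap_apply_of_ne_of_ne hz.1 hz.2
    have hcS : swap x y * a ∈ Sy (S \ orb A x) := by
      intro z hz
      by_cases hzT : z ∈ orb A x
      · rw [hT, Finset.mem_insert, Finset.mem_singleton] at hzT
        rcases hzT with rfl | rfl
        · rw [Perm.mul_apply, hax, swap_apply_right]
        · rw [Perm.mul_apply, hay, swap_apply_left]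
      · have hzS : z ∉ S := fun h => hz (Finset.mem_sdiff.2 ⟨h, hzT⟩)
        rw [Perm.mul_apply, hASy ha z hzS, hsw z hzT]
    have hcK : ∀ k ∈ stb A x, swap x y * a * k = k * (swap x y * a) := by
      intro k hk
      have h3 : swap x y * k = k * swap x y := commute_of_fixes hsw (fun z hz => stb_fixes hab hk hz)
      rw [mul_assoc, hab a ha k (stb_le A x hk), ← mul_assoc, h3, mul_assoc]
    have hcn : swap x y * a ∉ stb A x := by
      intro h
      have h3 := (mem_Al.1 (hA (stb_le A x h))).2
      rw [map_mul, (mem_Al.1 (hA ha)).2, sign_swap hyx.symm] at h3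
      exact absurd h3 (by decide)
    have h5 := extend_bound (stb_le_Sy hASy hab x) (hab.mono (stb_le A x)) hcS hcK hcn
    rw [hsd, h2, ← h2, ← hc, h2] at h5
    have h6 : 3 ^ S.card = 9 * 3 ^ (S.card - 2) := by
      have : S.card = 2 + (S.card - 2) := by omega
      conv_lhs => rw [this, pow_add]
      norm_num
    have h7 : Nat.card A ^ 3 < gg S.card ^ 3 := by
      have := gg_pos S.card
      have h8 : 0 < gg S.card ^ 3 := by positivity
      omega
    exact lt_of_pow_lt_pow_left₀ 3 (Nat.zero_le _) h7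
  · have h7 := two_cube_lt _ h6
    rw [hsd] at hIH
    have h8 : Nat.card (stb A x) ^ 3 ≤ 3 ^ (S.card - (orb A x).card) :=
      (Nat.pow_le_pow_left hIH 3).trans (gg_cube_le _)
    have h9 : 2 * Nat.card A ^ 3 < 2 * gg S.card ^ 3 := by
      calc 2 * Nat.card A ^ 3 = (2 * (orb A x).card ^ 3) * Nat.card (stb A x) ^ 3 := by
            rw [hc, mul_pow]
            ring
        _ ≤ (2 * (orb A x).card ^ 3) * 3 ^ (S.card - (orb A x).card) := Nat.mul_le_mul_left _ h8
        _ < 3 ^ (orb A x).card * 3 ^ (S.card - (orb A x).card) :=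
            Nat.mul_lt_mul_of_pos_right h7 (by positivity)
        _ = 3 ^ S.card := by
            rw [← pow_add]
            congr 1
            omega
        _ ≤ 2 * gg S.card ^ 3 := hN2
    have h10 : Nat.card A ^ 3 < gg S.card ^ 3 := by omega
    exact lt_of_pow_lt_pow_left₀ 3 (Nat.zero_le _) h10

theorem card_le_gg_aux : ∀ (n : ℕ) (S : Finset α), S.card = n → ∀ A : Subgroup (Perm α), A ≤ Al S → Ab A →
    Nat.card A ≤ gg n := by
  intro n
  induction n using Nat.strong_induction_on with
  | _ n ih =>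
    intro S hS A hA hab
    by_cases hs : S.card ≤ 2
    · have hA0 : A = ⊥ := by
        rw [eq_bot_iff, ← Al_eq_bot hs]
        exact hA
      rw [hA0, Subgroup.card_bot]
      exact gg_pos n
    · have hs3 : 3 ≤ S.card := by omega
      obtain ⟨x, hx⟩ : S.Nonempty := Finset.card_pos.1 (by omega)
      have hASy := hA.trans (Al_le_Sy S)
      obtain ⟨hsd, htpos, htle⟩ := card_sdiff_orb hASy hx
      have hK := ih (S \ orb A x).card (by omega) (S \ orb A x) rfl (stb A x) (stb_le_Al hA hab x)
        (hab.mono (stb_le A x))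
      rcases orbit_bound hA hab hx hs3 hK with h | h
      · rw [card_eq_orb_mul A x, ← hS]
        rw [hsd] at hK
        exact (Nat.mul_le_mul_left _ hK).trans (mul_gg_le _ _ h htle)
      · rw [← hS]
        exact h.le

theorem card_le_gg {S : Finset α} {A : Subgroup (Perm α)} (hA : A ≤ Al S) (hab : Ab A) :
    Nat.card A ≤ gg S.card :=
  card_le_gg_aux _ S rfl A hA hab

theorem ext_orbit {S : Finset α} {A : Subgroup (Perm α)} (h : Ext S A) (hs : 3 ≤ S.card) {x : α} (hx : x ∈ S) :
    ((orb A x).card = 3 ∨ (orb A x).card = 4 ∨ (orb A x).card = 5) ∧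
      (orb A x).card * gg (S.card - (orb A x).card) = gg S.card ∧ Ext (S \ orb A x) (stb A x) := by
  have hASy := h.le.trans (Al_le_Sy S)
  obtain ⟨hsd, htpos, htle⟩ := card_sdiff_orb hASy hx
  have hKle := stb_le_Al h.le h.ab x
  have hKab := h.ab.mono (stb_le A x)
  have hK := card_le_gg hKle hKab
  have hc := card_eq_orb_mul A x
  rcases orbit_bound h.le h.ab hx hs hK with ht | ht
  · have h1 := mul_gg_le _ _ ht htle
    rw [hsd] at hK
    have h2 := Nat.mul_le_mul_left (orb A x).card hK
    rw [← hc, h.card] at h2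
    have h3 : (orb A x).card * gg (S.card - (orb A x).card) = gg S.card := le_antisymm h1 h2
    refine ⟨ht, h3, hKle, hKab, ?_⟩
    rw [hsd]
    have h4 : (orb A x).card * Nat.card (stb A x) = (orb A x).card * gg (S.card - (orb A x).card) := by
      rw [← hc, h.card, h3]
    exact Nat.eq_of_mul_eq_mul_left htpos h4
  · rw [h.card] at ht
    exact absurd ht (lt_irrefl _)

end Cfsg.Agent.Lib.Helper10.AbAlt
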