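import Cfsg.Agent.Lib.Helper10.AbAlt.OB

/-! S2506 farm, pieces ST2a + ST2b + ST2c: an extremal group splits along an orbit. -/

set_option autoImplicit false
set_option linter.unusedSectionVars false
open Equiv Equiv.Perm
open scoped Pointwise

namespace Cfsg.Agent.Lib.Helper10.AbAlt

variable {α : Type*} [DecidableEq α] [Fintype α]

theorem part_facts {S : Finset α} {A : Subgroup (Perm α)} (hA : A ≤ Sy S) (hab : Ab A) {x : α} (hx : x ∈ S)
    {a u v : Perm α} (ha : a ∈ A) (hauv : a = u * v) (hu : u ∈ Sy (orb A x)) (hv : ∀ y ∈ orb A x, v y = y) :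
    v ∈ Sy (S \ orb A x) ∧ ∀ k ∈ stb A x, v * k = k * v := by
  have hv' : v = u⁻¹ * a := by rw [hauv]; group
  have hvS : v ∈ Sy S := by
    rw [hv']
    exact mul_mem (inv_mem (Sy_mono (orb_subset hA hx) hu)) (hA ha)
  refine ⟨?_, ?_⟩
  · intro z hz
    by_cases hzT : z ∈ orb A x
    · exact hv z hzT
    · exact hvS z (fun h => hz (Finset.mem_sdiff.2 ⟨h, hzT⟩))
  · intro k hk
    have h1 : u * k = k * u := commute_of_fixes hu (fun z hz => stb_fixes hab hk hz)
    have h2 : a * k = k * a := hab a ha k (stb_le A x hk)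
    have h3 : u⁻¹ * k = k * u⁻¹ := by
      have : k = u⁻¹ * (u * k) := by group
      calc u⁻¹ * k = u⁻¹ * k * u * u⁻¹ := by group
        _ = u⁻¹ * (k * u) * u⁻¹ := by group
        _ = u⁻¹ * (u * k) * u⁻¹ := by rw [h1]
        _ = k * u⁻¹ := by group
    rw [hv', mul_assoc, h2, ← mul_assoc, h3, mul_assoc]

theorem sign_part {S : Finset α} {A : Subgroup (Perm α)} (h : Ext S A) (hs : 3 ≤ S.card) {x : α} (hx : x ∈ S)
    {a u v : Perm α} (ha : a ∈ A) (hauv : a = u * v) (hu : u ∈ Sy (orb A x)) (hv : ∀ y ∈ orb A x, v y = y) :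
    sign u = 1 := by
  have hASy := h.le.trans (Al_le_Sy S)
  obtain ⟨hvS, hvK⟩ := part_facts hASy h.ab hx ha hauv hu hv
  obtain ⟨hsd, htpos, htle⟩ := card_sdiff_orb hASy hx
  rcases Int.units_eq_one_or (sign u) with h1 | h1
  · exact h1
  exfalso
  have hsa := (mem_Al.1 (h.le ha)).2
  have hsv : sign v = -1 := by
    rw [hauv, map_mul, h1] at hsa
    have : sign v = -1 * (-1 * sign v) := by simp
    rw [this, hsa]
    rfl
  have hvn : v ∉ stb A x := by
    intro hvk
    have h3 := (mem_Al.1 (h.le (stb_le A x hvk))).2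
    rw [hsv] at h3
    exact absurd h3 (by decide)
  have h5 := extend_bound (stb_le_Sy hASy h.ab x) (h.ab.mono (stb_le A x)) hvS hvK hvn
  rw [hsd] at h5
  have hc := card_eq_orb_mul A x
  have h6 : 8 * Nat.card A ^ 3 ≤ 3 ^ S.card := by
    calc 8 * Nat.card A ^ 3 = (orb A x).card ^ 3 * (2 * Nat.card (stb A x)) ^ 3 := by
          rw [hc]
          ring
      _ ≤ 3 ^ (orb A x).card * 3 ^ (S.card - (orb A x).card) := Nat.mul_le_mul (cube_le_pow _) h5
      _ = 3 ^ S.card := by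
          rw [← pow_add]
          congr 1
          omega
  have h7 := pow_le_two_gg S.card hs
  rw [← h.card] at h7
  have h8 : 0 < Nat.card A ^ 3 := by
    have : 0 < Nat.card A := Nat.card_pos
    positivity
  omega

theorem part_mem {S : Finset α} {A : Subgroup (Perm α)} (h : Ext S A) (hs : 3 ≤ S.card) {x : α} (hx : x ∈ S)
    {a u v : Perm α} (ha : a ∈ A) (hauv : a = u * v) (hu : u ∈ Sy (orb A x)) (hv : ∀ y ∈ orb A x, v y = y)
    (hsu : sign u = 1) : v ∈ stb A x ∧ u ∈ A := by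
  have hASy := h.le.trans (Al_le_Sy S)
  obtain ⟨hvS, hvK⟩ := part_facts hASy h.ab hx ha hauv hu hv
  obtain ⟨-, -, hK⟩ := ext_orbit h hs hx
  have hsa := (mem_Al.1 (h.le ha)).2
  have hsv : sign v = 1 := by
    rw [hauv, map_mul, hsu, one_mul] at hsa
    exact hsa
  have hvAl : v ∈ Al (S \ orb A x) := mem_Al.2 ⟨hvS, hsv⟩
  have hW : stb A x ⊔ Subgroup.zpowers v ≤ Al (S \ orb A x) := sup_le hK.le (by rwa [Subgroup.zpowers_le])
  have hcard := card_le_gg hW (ab_sup_zpowers hK.ab hvK)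
  rw [← hK.card] at hcard
  have heq : stb A x = stb A x ⊔ Subgroup.zpowers v := Subgroup.eq_of_le_of_card_ge le_sup_left hcard
  have hvk : v ∈ stb A x := by
    rw [heq]
    exact Subgroup.mem_sup_right (Subgroup.mem_zpowers v)
  refine ⟨hvk, ?_⟩
  have : u = a * v⁻¹ := by rw [hauv]; group
  rw [this]
  exact mul_mem ha (inv_mem (stb_le A x hvk))

theorem ext_split {S : Finset α} {A : Subgroup (Perm α)} (h : Ext S A) (hs : 3 ≤ S.card) {x : α} (hx : x ∈ S) :
    Nat.card (A ⊓ Sy (orb A x) : Subgroup (Perm α)) = (orb A x).card ∧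
      A = (A ⊓ Sy (orb A x)) ⊔ stb A x := by
  have hASy := h.le.trans (Al_le_Sy S)
  have hsplit : A = (A ⊓ Sy (orb A x)) ⊔ stb A x := by
    refine le_antisymm ?_ (sup_le inf_le_left (stb_le A x))
    intro a ha
    obtain ⟨u, v, hauv, hu, hv, -, -⟩ := exists_decomp (orb A x) a (apply_mem_orb_iff ha x)
    have hsu := sign_part h hs hx ha hauv hu hv
    obtain ⟨hvk, huA⟩ := part_mem h hs hx ha hauv hu hv hsu
    rw [hauv]
    exact mul_mem (Subgroup.mem_sup_left (Subgroup.mem_inf.2 ⟨huA, hu⟩)) (Subgroup.mem_sup_right hvk)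
  refine ⟨?_, hsplit⟩
  have hdis : Disjoint (orb A x) (S \ orb A x) := Finset.disjoint_sdiff
  have h1 := card_sup_of_disjoint hdis (inf_le_right : A ⊓ Sy (orb A x) ≤ Sy (orb A x))
    (stb_le_Sy hASy h.ab x)
  rw [← hsplit, card_eq_orb_mul A x] at h1
  have hpos : 0 < Nat.card (stb A x) := Nat.card_pos
  exact (Nat.eq_of_mul_eq_mul_right hpos h1).symm

end Cfsg.Agent.Lib.Helper10.AbAlt
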